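import Cfsg.Agent.FGS2.J2.Elements
import Cfsg.Agent.FGS3.Extraspecial
import Cfsg.Agent.FGS3.PGroupFrattini
import Cfsg.Agent.Fischer.LargeSimple

/-!
The centraliser of a reflection in the Hall–Janko group: an extraspecial group of order 32 by the alternating
group of degree five.
-/

set_option autoImplicit false
set_option maxRecDepth 100000

namespace Cfsg.Agent.FGS2.J2

open scoped commutatorElement

/-- The image of a stabiliser element on five points. -/
def phiFun (m : ℕ) (i : Fin 5) : Fin 5 :=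
  ⟨getT phiTab 48 m / 5 ^ (i : ℕ) % 5, Nat.mod_lt _ (by norm_num)⟩

theorem phi_step : ((List.range 2).all fun g => (List.range 1920).all fun m => (List.finRange 5).all fun i =>
    phiFun (getT hlTab 48 (1920 * g + m)) i == phiFun (getT hlTab 48 (1920 * g)) (phiFun m i)) = true := by
  decide +kernel

theorem phi_zero : ∀ i, phiFun 0 i = i := by decide +kernel

theorem qList_spec : (List.range 1920).filter (fun m => (List.finRange 5).all fun i => phiFun m i == i) = qList := by
  decide +kernel

theorem tIdx_spec : tIdx < 1920 ∧ tIdx ≠ 0 ∧ hAt tIdx = tc 0 ∧ tIdx ∈ qList := by decide +kernel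

theorem qList_lt : ∀ a ∈ qList, a < 1920 := by decide +kernel

theorem qList_facts : (qList.all fun a =>
    (mmul (hAt a) (hAt a) == idCode || mmul (hAt a) (hAt a) == tc 0) &&
    (qList.all fun b => mmul (hAt a) (hAt b) == mmul (hAt b) (hAt a) ||
      mmul (hAt a) (hAt b) == mmul (tc 0) (mmul (hAt b) (hAt a))) &&
    (a == 0 || a == tIdx || qList.any fun b => !(mmul (hAt a) (hAt b) == mmul (hAt b) (hAt a)))) = true := by
  decide +kernel

theorem phi_even : ((List.range 1920).all fun m => phiPre.any fun p =>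
    getT phiTab 48 m == getT phiTab 48 p) = true := by decide +kernel

theorem phiPre_sign : ∀ p ∈ phiPre, p < 1920 ∧ ∃ s : Equiv.Perm (Fin 5), Equiv.Perm.sign s = 1 ∧ ∀ i, s i = phiFun p i := by
  decide +kernel

theorem phiPre_sep : phiPre.length = 60 ∧ (phiPre.map fun p => getT phiTab 48 p % 3125).Nodup ∧
    ∀ p ∈ phiPre, getT phiTab 48 p < 3125 := by decide +kernel

theorem phi_hom : ∀ a, a < 1920 → ∀ b < 1920, ∀ q < 1920, mmul (hAt a) (hAt b) = hAt q →
    ∀ i, phiFun q i = phiFun a (phiFun b i) := by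
  have step : ∀ g < 2, ∀ m < 1920, ∀ q < 1920, mmul (hgAt g) (hAt m) = hAt q →
      ∀ i, phiFun q i = phiFun (getT hlTab 48 (1920 * g)) (phiFun m i) := by
    intro g hg m hm q hq e i
    have h := List.all_eq_true.1 (List.all_eq_true.1 hlOK_all g (List.mem_range.2 hg)) m (List.mem_range.2 hm)
    simp only [hlOK, Bool.and_eq_true, beq_iff_eq, decide_eq_true_eq] at h
    have : q = getT hlTab 48 (1920 * g + m) := hAt_inj hq h.1 (e.symm.trans h.2)
    subst this
    exact beq_iff_eq.1 (List.all_eq_true.1 (List.all_eq_true.1 (List.all_eq_true.1 phi_step g (List.mem_range.2 hg))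
      m (List.mem_range.2 hm)) i (List.mem_finRange i))
  intro a
  induction a using Nat.strong_induction_on with
  | _ a ih =>
    intro ha b hb q hq e i
    by_cases h0 : a = 0
    · subst h0
      rw [(h_spec ha).1 rfl, (lift_hAt b hb).id_mul] at e
      rw [← hAt_inj hb hq e, phi_zero]
    · obtain ⟨hp, he⟩ := (h_spec ha).2 h0
      have hg2 : getT hparTab 48 a % 2 < 2 := Nat.mod_lt _ (by norm_num)
      obtain ⟨r, hr, er⟩ := h_closed (getT hparTab 48 a / 2) (by omega) b hb
      rw [he, (lift_hgAt hg2).assoc (lift_hAt _ (by omega)) (lift_hAt b hb), er] at e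
      rw [step _ hg2 r hr q hq e i, ih _ hp (by omega) b hb r hr er i,
        step _ hg2 _ (by omega) a ha he.symm]

/-- The index of a stabiliser element. -/
noncomputable def idxS (g : stab) : ℕ := (stab_exists g.2).choose

theorem idxS_lt (g : stab) : idxS g < 1920 := (stab_exists g.2).choose_spec.1

theorem hEl_idxS (g : stab) : hEl (idxS g) = (g : Spor.J2) := (stab_exists g.2).choose_spec.2.symm

theorem hAt_idxS (g : stab) : hAt (idxS g) = M (g : Spor.J2) := by
  rw [← M_hEl (idxS_lt g), hEl_idxS]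

theorem idxS_mul (g k : stab) (i : Fin 5) : phiFun (idxS (g * k)) i = phiFun (idxS g) (phiFun (idxS k) i) :=
  phi_hom _ (idxS_lt g) _ (idxS_lt k) _ (idxS_lt _) (by rw [hAt_idxS, hAt_idxS, hAt_idxS, ← M_mul]; rfl) i

theorem idxS_one : idxS 1 = 0 :=
  hAt_inj (idxS_lt 1) (by norm_num) (by rw [hAt_idxS, Subgroup.coe_one, M_one, (h_spec (by norm_num)).1 rfl])

/-- The action on five points. -/
noncomputable def phiPerm : stab →* Equiv.Perm (Fin 5) where
  toFun g :=
    { toFun := phiFun (idxS g)
      invFun := phiFun (idxS g⁻¹)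
      left_inv := fun i => by rw [← idxS_mul, inv_mul_cancel, idxS_one, phi_zero]
      right_inv := fun i => by rw [← idxS_mul, mul_inv_cancel, idxS_one, phi_zero] }
  map_one' := by
    apply Equiv.ext; intro i
    show phiFun (idxS 1) i = i
    rw [idxS_one, phi_zero]
  map_mul' g k := Equiv.ext (idxS_mul g k)

theorem phiFun_congr {m p : ℕ} (h : getT phiTab 48 m = getT phiTab 48 p) (i : Fin 5) : phiFun m i = phiFun p i := by
  simp [phiFun, h]

theorem phiPerm_sign (g : stab) : phiPerm g ∈ alternatingGroup (Fin 5) := by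
  obtain ⟨p, hp, e⟩ := List.any_eq_true.1 (List.all_eq_true.1 phi_even _ (List.mem_range.2 (idxS_lt g)))
  obtain ⟨-, s, hs, hsi⟩ := phiPre_sign p hp
  have : phiPerm g = s := Equiv.ext fun i => (phiFun_congr (beq_iff_eq.1 e) i).trans (hsi i).symm
  rw [Equiv.Perm.mem_alternatingGroup, this, hs]

/-- The quotient map. -/
noncomputable def phiA : stab →* alternatingGroup (Fin 5) := phiPerm.codRestrict _ phiPerm_sign

theorem mem_ker {g : stab} : g ∈ phiA.ker ↔ idxS g ∈ qList := by
  rw [← qList_spec, List.mem_filter, List.all_eq_true, MonoidHom.mem_ker]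
  constructor
  · intro h
    refine ⟨List.mem_range.2 (idxS_lt g), fun i _ => beq_iff_eq.2 ?_⟩
    exact Equiv.congr_fun (congrArg Subtype.val h) i
  · rintro ⟨-, h⟩
    exact Subtype.ext (Equiv.ext fun i => beq_iff_eq.1 (h i (List.mem_finRange i)))

theorem code_eq {c d : ℕ} (hc : c < 3125) (hd : d < 3125)
    (h : ∀ i : Fin 5, c / 5 ^ (i : ℕ) % 5 = d / 5 ^ (i : ℕ) % 5) : c = d := by
  have := h 0; have := h 1; have := h 2; have := h 3; have := h 4
  simp at *
  omega

theorem phiA_surj : Function.Surjective phiA := by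
  classical
  let e : Fin 60 → alternatingGroup (Fin 5) := fun k =>
    phiA ⟨hEl (phiPre.getD k 0), hEl_mem ((phiPre_sign _ (by
      rw [List.getD_eq_getElem _ _ (by rw [phiPre_sep.1]; exact k.2)]; exact List.getElem_mem _)).1)⟩
  have hlen : ∀ k : Fin 60, (k : ℕ) < phiPre.length := fun k => by rw [phiPre_sep.1]; exact k.2
  have hi : Function.Injective e := by
    intro a b h
    have hk : ∀ k : Fin 60, ∀ hm, ∀ i, (phiA ⟨hEl (phiPre.getD k 0), hm⟩ : Equiv.Perm (Fin 5)) i =
        phiFun (phiPre.getD k 0) i := by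
      intro k hm i
      have hlt : phiPre.getD k 0 < 1920 := (phiPre_sign _ (by
        rw [List.getD_eq_getElem _ _ (hlen k)]; exact List.getElem_mem _)).1
      have : idxS ⟨hEl (phiPre.getD k 0), hm⟩ = phiPre.getD k 0 := hEl_inj (idxS_lt _) hlt (hEl_idxS _)
      show phiFun (idxS _) i = _
      rw [this]
    have hcode : getT phiTab 48 (phiPre.getD a 0) = getT phiTab 48 (phiPre.getD b 0) := by
      refine code_eq (phiPre_sep.2.2 _ ?_) (phiPre_sep.2.2 _ ?_) fun i => ?_
      · rw [List.getD_eq_getElem _ _ (hlen a)]; exact List.getElem_mem _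
      · rw [List.getD_eq_getElem _ _ (hlen b)]; exact List.getElem_mem _
      · have := Equiv.congr_fun (congrArg Subtype.val h) i
        simp only [e, hk] at this
        exact congrArg Fin.val this
    refine Fin.ext ((List.Nodup.getElem_inj_iff phiPre_sep.2.1 (hi := by rw [List.length_map]; exact hlen a)
      (hj := by rw [List.length_map]; exact hlen b)).1 ?_)
    rw [List.getElem_map, List.getElem_map, ← List.getD_eq_getElem _ 0 (hlen a), ← List.getD_eq_getElem _ 0 (hlen b),
      hcode]
  have hcard : Fintype.card (alternatingGroup (Fin 5)) = 60 := by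
    rw [← Nat.card_eq_fintype_card, nat_card_alternatingGroup, Nat.card_eq_fintype_card, Fintype.card_fin]
    decide
  intro y
  obtain ⟨k, hk⟩ := ((Fintype.bijective_iff_injective_and_card e).2 ⟨hi, by rw [hcard, Fintype.card_fin]⟩).2 y
  exact ⟨_, hk⟩

theorem card_ker : Nat.card phiA.ker = 32 := by
  have h := Subgroup.card_eq_card_quotient_mul_card_subgroup phiA.ker
  rw [Nat.card_congr (QuotientGroup.quotientKerEquivOfSurjective phiA phiA_surj).toEquiv, card_stab,
    nat_card_alternatingGroup, Nat.card_eq_fintype_card, Fintype.card_fin] at h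
  simp only [show Nat.factorial 5 / 2 = 60 by decide] at h
  omega

theorem extraspecial_ker : Cfsg.IsExtraspecial 2 phiA.ker := by
  classical
  haveI : Fact (Nat.Prime 2) := ⟨Nat.prime_two⟩
  haveI : Finite phiA.ker := Nat.finite_of_card_ne_zero (by rw [card_ker]; norm_num)
  obtain ⟨ht1, ht0, htc, htq⟩ := tIdx_spec
  have hidx : ∀ m, ∀ hm : m < 1920, idxS ⟨hEl m, hEl_mem hm⟩ = m := fun m hm =>
    hEl_inj (idxS_lt _) hm (hEl_idxS _)
  let z : phiA.ker := ⟨⟨hEl tIdx, hEl_mem ht1⟩, mem_ker.2 (by rw [hidx tIdx ht1]; exact htq)⟩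
  have hzM : M (z.1.1) = tc 0 := by show M (hEl tIdx) = _; rw [M_hEl ht1, htc]
  have hM : ∀ x : phiA.ker, M x.1.1 = hAt (idxS x.1) := fun x => (hAt_idxS x.1).symm
  have ext' : ∀ x y : phiA.ker, M x.1.1 = M y.1.1 → x = y := fun x y h => Subtype.ext (Subtype.ext (M_inj h))
  have facts : ∀ x : phiA.ker, (x * x = 1 ∨ x * x = z) ∧ (∀ y, x * y = y * x ∨ x * y = z * (y * x)) ∧
      (x = 1 ∨ x = z ∨ ∃ y, x * y ≠ y * x) := by
    intro x
    have hx := mem_ker.1 x.2
    have h := List.all_eq_true.1 qList_facts _ hx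
    simp only [Bool.and_eq_true, Bool.or_eq_true, beq_iff_eq, List.any_eq_true, Bool.not_eq_true',
      beq_eq_false_iff_ne, ← hM x] at h
    obtain ⟨⟨h1, h2⟩, h3⟩ := h
    have mM : ∀ a b : phiA.ker, M (a * b).1.1 = mmul (M a.1.1) (M b.1.1) := fun a b => M_mul _ _
    have m1 : M (1 : phiA.ker).1.1 = idCode := M_one
    refine ⟨?_, fun y => ?_, ?_⟩
    · rcases h1 with h1 | h1
      · left; apply ext'; rw [mM, h1, m1]
      · right; apply ext'; rw [mM, h1, hzM]
    · have h := List.all_eq_true.1 h2 _ (mem_ker.1 y.2)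
      simp only [Bool.or_eq_true, beq_iff_eq, ← hM y] at h
      rcases h with h | h
      · left; apply ext'; rw [mM, mM, h]
      · right; apply ext'; rw [mM, mM, mM, hzM, h]
    · rcases h3 with (h3 | h3) | ⟨b, hb, hne⟩
      · left; apply ext'; rw [hM x, h3, m1, (h_spec (by norm_num)).1 rfl]
      · right; left; apply ext'; rw [hM x, h3, hzM, htc]
      · right; right
        have hb' := qList_lt b hb
        refine ⟨⟨⟨hEl b, hEl_mem hb'⟩, mem_ker.2 (by rw [hidx b hb']; exact hb)⟩, fun e => hne ?_⟩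
        have := congrArg (fun q : phiA.ker => M q.1.1) e
        simp only [mM] at this
        rwa [show M (hEl b) = hAt b from M_hEl hb'] at this
  have hzc : z ∈ Subgroup.center phiA.ker := Subgroup.mem_center_iff.2 fun y => Subtype.ext (Subtype.ext (by
    show (y.1.1 : Spor.J2) * hEl tIdx = hEl tIdx * y.1.1
    have : hEl tIdx = tRef 0 := M_inj (by rw [M_hEl ht1, htc, M_tRef (by norm_num)])
    rw [this, mem_stab.1 y.1.2]))
  have hz1 : z ≠ 1 := fun e => ht0 (hEl_inj ht1 (by norm_num) (by
    rw [show hEl tIdx = ((z : stab) : Spor.J2) from rfl, e]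
    exact M_inj (by rw [M_hEl (show 0 < 1920 by norm_num), (h_spec (by norm_num)).1 rfl]; exact M_one)))
  have hset : ((Subgroup.center phiA.ker : Subgroup phiA.ker) : Set phiA.ker) = {1, z} := by
    ext x
    constructor
    · intro hx
      rcases (facts x).2.2 with h | h | ⟨y, hy⟩
      · exact Or.inl h
      · exact Or.inr h
      · exact absurd ((Subgroup.mem_center_iff.1 hx y).symm) hy
    · rintro (rfl | rfl)
      · exact Subgroup.one_mem _
      · exact hzc
  have hcard : Nat.card (Subgroup.center phiA.ker) = 2 := by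
    show Nat.card ((Subgroup.center phiA.ker : Set phiA.ker) : Set phiA.ker) = 2
    rw [hset, Nat.card_coe_set_eq, Set.ncard_pair hz1.symm]
  have hp : IsPGroup 2 phiA.ker := IsPGroup.of_card (n := 5) (by rw [card_ker]; norm_num)
  have hcomm : commutator phiA.ker ≤ Subgroup.center phiA.ker := by
    rw [commutator_def, Subgroup.commutator_le]
    intro a _ b _
    rcases (facts a).2.1 b with h | h
    · rw [show ⁅a, b⁆ = 1 from commutatorElement_eq_one_iff_mul_comm.2 h]; exact Subgroup.one_mem _
    · rw [commutatorElement_def, h]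
      convert hzc using 1
      group
  have hne : ∃ a b : phiA.ker, a * b ≠ b * a := by
    by_contra hall
    push Not at hall
    have : Subgroup.center phiA.ker = ⊤ := eq_top_iff.2 fun x _ => Subgroup.mem_center_iff.2 fun y => hall y x
    rw [this, Subgroup.card_top, card_ker] at hcard
    exact absurd hcard (by norm_num)
  have hzc' : Subgroup.center phiA.ker ≤ commutator phiA.ker := by
    intro x hx
    have hx' : x ∈ ({1, z} : Set phiA.ker) := hset ▸ hx
    rcases hx' with rfl | rfl
    · exact Subgroup.one_mem _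
    · obtain ⟨a, b, hab⟩ := hne
      rcases (facts a).2.1 b with h | h
      · exact absurd h hab
      · have : z = ⁅a, b⁆ := by rw [commutatorElement_def, h]; group
        rw [this, commutator_def]
        exact Subgroup.commutator_mem_commutator (Subgroup.mem_top _) (Subgroup.mem_top _)
  refine ⟨⟨hp, le_antisymm (FGS3.frattini_le_of_elementary (p := 2) hcomm fun g => ?_)
    (hzc'.trans (FGS3.commutator_le_frattini (p := 2) hp)), le_antisymm hcomm hzc'⟩, hcard⟩
  rw [pow_two]
  rcases (facts g).1 with h | h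
  · rw [h]; exact Subgroup.one_mem _
  · rw [h]; exact hzc

/-- Transport of a centraliser along conjugation. -/
noncomputable def centEquiv (g x : Spor.J2) :
    ↥(Subgroup.centralizer {x}) ≃* ↥(Subgroup.centralizer {g * x * g⁻¹}) :=
  ((MulAut.conj g).subgroupMap (Subgroup.centralizer {x})).trans <| MulEquiv.subgroupCongr (by
    ext y
    show y ∈ Subgroup.map (MulAut.conj g).toMonoidHom _ ↔ _
    rw [Subgroup.mem_map_equiv, MulAut.conj_symm_apply, Subgroup.mem_centralizer_iff, Subgroup.mem_centralizer_iff]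
    simp only [Set.mem_singleton_iff, forall_eq]
    constructor
    · intro h
      calc g * x * g⁻¹ * y = g * (x * (g⁻¹ * y * g)) * g⁻¹ := by group
        _ = g * (g⁻¹ * y * g * x) * g⁻¹ := by rw [h]
        _ = _ := by group
    · intro h
      calc x * (g⁻¹ * y * g) = g⁻¹ * (g * x * g⁻¹ * y) * g := by group
        _ = g⁻¹ * (y * (g * x * g⁻¹)) * g := by rw [h]
        _ = _ := by group)

theorem result (f : Equiv.Perm ↥Spor.icoLeech) (hf : Spor.IsIcoReflection f) (hfm : f ∈ Spor.twoJ2) :
    ∃ (Q : Subgroup ↥(Subgroup.centralizer {(QuotientGroup.mk ⟨f, hfm⟩ : Spor.J2)})) (_ : Q.Normal),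
      Nat.card Q = 32 ∧ Cfsg.IsExtraspecial 2 Q ∧
      Nonempty (↥(Subgroup.centralizer {(QuotientGroup.mk ⟨f, hfm⟩ : Spor.J2)}) ⧸ Q ≃* alternatingGroup (Fin 5)) := by
  obtain ⟨n, hn, e⟩ := refl_image hf hfm
  rw [e, ← conj_uEl hn]
  let E := centEquiv (uEl n) (tRef 0)
  let ψ := phiA.comp E.symm.toMonoidHom
  have hψ : Function.Surjective ψ := phiA_surj.comp E.symm.surjective
  have hk : phiA.ker.map E.toMonoidHom = ψ.ker := by
    ext y
    rw [Subgroup.mem_map_equiv]
    rfl
  let eQ : phiA.ker ≃* ψ.ker := (E.subgroupMap _).trans (MulEquiv.subgroupCongr hk)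
  exact ⟨ψ.ker, inferInstance, by rw [← Nat.card_congr eQ.toEquiv, card_ker],
    Fischer.extraspecial_congr eQ extraspecial_ker, ⟨QuotientGroup.quotientKerEquivOfSurjective ψ hψ⟩⟩

end Cfsg.Agent.FGS2.J2
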