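import Cfsg.Agent.FGS2.J2.Centraliser
import Cfsg.Agent.FGS2.J2.FusionData
import Cfsg.Agent.Fusion.SimpleCriterion

/-!
The fusion system of the Hall–Janko group at the prime two is simple.
-/

set_option autoImplicit false
set_option maxRecDepth 100000

namespace Cfsg.Agent.FGS2.J2

noncomputable instance finiteJ2' : Finite Spor.J2 := Nat.finite_of_card_ne_zero (by rw [card_J2]; norm_num)

theorem pList_lt : ∀ a ∈ pList, a < 1920 := by decide +kernel

theorem pList_zero : pList.getD 0 1 = 0 ∧ pList.length = 128 ∧ pList.Nodup := by decide +kernel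

theorem pGen_act : (pGen.all fun a => decide (a < 1920) &&
    pList.all fun i => pList.any fun j => mmul (hAt a) (hAt i) == hAt j) = true := by decide +kernel

theorem pPar_ok : ((List.range 128).all fun i => decide (i = 0) ||
    (decide (pPar.getD i 0 / pGen.length < i) && decide (pPar.getD i 0 % pGen.length < pGen.length) &&
      mmul (hAt (pGen.getD (pPar.getD i 0 % pGen.length) 0)) (hAt (pList.getD (pPar.getD i 0 / pGen.length) 0)) ==
        hAt (pList.getD i 0))) = true := by decide +kernel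

/-- The Sylow subgroup. -/
noncomputable def P2 : Subgroup Spor.J2 := Subgroup.closure {g | ∃ a ∈ pGen, g = hEl a}

theorem pList_mem : ∀ i, i < 128 → hEl (pList.getD i 0) ∈ P2 := by
  have hlen := pList_zero.2.1
  have hget : ∀ i < 128, pList.getD i 0 ∈ pList := fun i hi => by
    rw [List.getD_eq_getElem _ _ (by omega)]; exact List.getElem_mem _
  intro i
  induction i using Nat.strong_induction_on with
  | _ i ih =>
    intro hi
    have h := List.all_eq_true.1 pPar_ok i (List.mem_range.2 hi)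
    simp only [Bool.or_eq_true, Bool.and_eq_true, decide_eq_true_eq, beq_iff_eq] at h
    rcases h with rfl | ⟨⟨hp, hg⟩, e⟩
    · rw [show pList.getD 0 0 = 0 by decide +kernel]
      convert one_mem P2
      exact M_inj (by rw [M_hEl (by norm_num), (h_spec (by norm_num)).1 rfl, M_one])
    · have hgm : pGen.getD (pPar.getD i 0 % pGen.length) 0 ∈ pGen := by
        rw [List.getD_eq_getElem _ _ hg]; exact List.getElem_mem _
      have hglt : pGen.getD (pPar.getD i 0 % pGen.length) 0 < 1920 := by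
        have := List.all_eq_true.1 pGen_act _ hgm
        simp only [Bool.and_eq_true, decide_eq_true_eq] at this
        exact this.1
      have : hEl (pList.getD i 0) =
          hEl (pGen.getD (pPar.getD i 0 % pGen.length) 0) * hEl (pList.getD (pPar.getD i 0 / pGen.length) 0) :=
        M_inj (by
          rw [M_mul, M_hEl (pList_lt _ (hget i hi)), M_hEl hglt, M_hEl (pList_lt _ (hget (pPar.getD i 0 / pGen.length) (by omega)))]
          exact e.symm)
      rw [this]
      exact mul_mem (Subgroup.subset_closure ⟨_, hgm, rfl⟩) (ih _ hp (by omega))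

theorem mem_P2 {g : Spor.J2} : g ∈ P2 ↔ ∃ i ∈ pList, g = hEl i := by
  constructor
  · intro hg
    have hg' : g ∈ Submonoid.closure {g | ∃ a ∈ pGen, g = hEl a} := by
      rw [← Subgroup.closure_toSubmonoid_of_finite]; exact hg
    suffices ∀ i ∈ pList, ∃ j ∈ pList, g * hEl i = hEl j by
      obtain ⟨j, hj, e⟩ := this 0 (by decide +kernel)
      refine ⟨j, hj, ?_⟩
      rwa [show hEl 0 = 1 from M_inj (by rw [M_hEl (by norm_num), (h_spec (by norm_num)).1 rfl, M_one]), mul_one] at e
    clear hg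
    induction hg' using Submonoid.closure_induction with
    | mem x hx =>
      obtain ⟨a, ha, rfl⟩ := hx
      intro i hi
      have h := List.all_eq_true.1 pGen_act a ha
      simp only [Bool.and_eq_true, decide_eq_true_eq, List.all_eq_true, List.any_eq_true, beq_iff_eq] at h
      obtain ⟨j, hj, e⟩ := h.2 i hi
      exact ⟨j, hj, M_inj (by rw [M_mul, M_hEl h.1, M_hEl (pList_lt i hi), M_hEl (pList_lt j hj), e])⟩
    | one => intro i hi; exact ⟨i, hi, one_mul _⟩
    | mul x y _ _ hx hy =>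
      intro i hi
      obtain ⟨j, hj, e⟩ := hy i hi
      obtain ⟨k, hk, e'⟩ := hx j hj
      exact ⟨k, hk, by rw [mul_assoc, e, e']⟩
  · rintro ⟨i, hi, rfl⟩
    obtain ⟨k, hk, rfl⟩ := List.getElem_of_mem hi
    rw [← List.getD_eq_getElem _ 0 hk]
    exact pList_mem k (by rw [← pList_zero.2.1]; exact hk)

theorem card_P2 : Nat.card P2 = 128 := by
  have hlen := pList_zero.2.1
  have hget : ∀ i : Fin 128, pList.getD i 0 ∈ pList := fun i => by
    rw [List.getD_eq_getElem _ _ (by omega)]; exact List.getElem_mem _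
  rw [← Nat.card_eq_of_bijective (fun i : Fin 128 => (⟨hEl (pList.getD i 0), pList_mem i i.2⟩ : P2)) ⟨?_, ?_⟩,
    Nat.card_fin]
  · intro a b h
    have := hEl_inj (pList_lt _ (hget a)) (pList_lt _ (hget b)) (congrArg Subtype.val h)
    rw [List.getD_eq_getElem _ _ (by omega), List.getD_eq_getElem _ _ (by omega)] at this
    exact Fin.ext ((List.Nodup.getElem_inj_iff pList_zero.2.2).1 this)
  · rintro ⟨g, hg⟩
    obtain ⟨i, hi, rfl⟩ := mem_P2.1 hg
    obtain ⟨k, hk, rfl⟩ := List.getElem_of_mem hi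
    refine ⟨⟨k, hlen ▸ hk⟩, Subtype.ext ?_⟩
    show hEl (pList.getD k 0) = hEl pList[k]
    rw [List.getD_eq_getElem _ _ hk]

theorem pCentre : (pList.all fun i => i == 0 || i == tIdx ||
    pList.any fun j => !(mmul (hAt i) (hAt j) == mmul (hAt j) (hAt i))) = true := by decide +kernel

/-- The check of one derivation. -/
def derOK (d : ℕ) : Bool :=
  if (pDer.getD d (0, 0, 0, 0, 0)).2.1 = 0 then
    decide ((pDer.getD d (0, 0, 0, 0, 0)).2.2.1 < 315) && decide ((pDer.getD d (0, 0, 0, 0, 0)).1 ∈ pList) &&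
      hAt (pDer.getD d (0, 0, 0, 0, 0)).1 == tc (pDer.getD d (0, 0, 0, 0, 0)).2.2.1
  else if (pDer.getD d (0, 0, 0, 0, 0)).2.1 = 1 then
    decide ((pDer.getD d (0, 0, 0, 0, 0)).2.2.1 < d) && decide ((pDer.getD d (0, 0, 0, 0, 0)).2.2.2.1 < d) &&
      hAt (pDer.getD d (0, 0, 0, 0, 0)).1 ==
        mmul (hAt (pDer.getD (pDer.getD d (0, 0, 0, 0, 0)).2.2.1 (0, 0, 0, 0, 0)).1)
          (hAt (pDer.getD (pDer.getD d (0, 0, 0, 0, 0)).2.2.2.1 (0, 0, 0, 0, 0)).1) &&
      decide ((pDer.getD d (0, 0, 0, 0, 0)).1 ∈ pList)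
  else
    decide ((pDer.getD d (0, 0, 0, 0, 0)).2.2.1 < d) && decide ((pDer.getD d (0, 0, 0, 0, 0)).2.2.2.1 < 315) &&
      decide ((pDer.getD d (0, 0, 0, 0, 0)).2.2.2.2 < 1920) && decide ((pDer.getD d (0, 0, 0, 0, 0)).1 ∈ pList) &&
      mmul (el (pDer.getD d (0, 0, 0, 0, 0)).2.2.2.1 (pDer.getD d (0, 0, 0, 0, 0)).2.2.2.2)
          (hAt (pDer.getD (pDer.getD d (0, 0, 0, 0, 0)).2.2.1 (0, 0, 0, 0, 0)).1) ==
        mmul (hAt (pDer.getD d (0, 0, 0, 0, 0)).1)
          (el (pDer.getD d (0, 0, 0, 0, 0)).2.2.2.1 (pDer.getD d (0, 0, 0, 0, 0)).2.2.2.2)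

theorem derOK_all : (List.range 128).all derOK = true := by decide +kernel

theorem pDer_cover : (pList.all fun i => i == 0 || (List.range 128).any fun d =>
    (pDer.getD d (0, 0, 0, 0, 0)).1 == i) = true := by decide +kernel

theorem qList_le : qList.all (fun i => decide (i ∈ pList)) = true := by decide +kernel

theorem qCentral : ((List.range 1920).all fun m => decide (m ∈ qList) ||
    qList.any fun b => !(mmul (hAt m) (hAt b) == mmul (hAt b) (hAt m))) = true := by decide +kernel

/-- The check of a generator of 2-power order. -/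
def powOK (hk : ℕ × ℕ) : Bool :=
  decide (hk.1 < 1920) && (List.range (2 ^ hk.2)).foldr (fun _ s => mmul (hAt hk.1) s) idCode == idCode

theorem twoGens_ok : twoGens.all powOK = true := by decide +kernel

theorem twoWord_ok : ((List.range 2).all fun g => (twoWord.getD g []).all (fun a => decide (a < twoGens.length)) &&
    (twoWord.getD g []).foldr (fun a s => mmul (hAt (twoGens.getD a (0, 0)).1) s) idCode == hgAt g) = true := by
  decide +kernel

/-- The elements of two-power order normalising the extraspecial subgroup. -/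
noncomputable def Rq : Subgroup Spor.J2 := phiA.ker.map stab.subtype

theorem mem_Rq {g : Spor.J2} : g ∈ Rq ↔ ∃ b ∈ qList, g = hEl b := by
  constructor
  · rintro ⟨x, hx, rfl⟩
    exact ⟨idxS x, mem_ker.1 hx, (hEl_idxS x).symm⟩
  · rintro ⟨b, hb, rfl⟩
    have hb' := qList_lt b hb
    refine ⟨⟨hEl b, hEl_mem hb'⟩, ?_, rfl⟩
    rw [SetLike.mem_coe, mem_ker, hEl_inj (idxS_lt _) hb' (hEl_idxS ⟨hEl b, hEl_mem hb'⟩)]
    exact hb

theorem Rq_le : Rq ≤ P2 := fun g hg => by
  obtain ⟨b, hb, rfl⟩ := mem_Rq.1 hg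
  exact mem_P2.2 ⟨b, by simpa using List.all_eq_true.1 qList_le b hb, rfl⟩

theorem gen_le_normalizer {G : Type*} [Group G] (H : Subgroup G) (N : Subgroup H) [N.Normal] :
    H ≤ Subgroup.normalizer ((N.map H.subtype : Subgroup G) : Set G) := by
  have h := Subgroup.le_normalizer_map (H := N) H.subtype
  rwa [Subgroup.normalizer_eq_top, ← MonoidHom.range_eq_map, Subgroup.range_subtype] at h

theorem stab_le_normalizer : stab ≤ Subgroup.normalizer (Rq : Set Spor.J2) :=
  gen_le_normalizer stab phiA.ker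

theorem P2_le_stab : P2 ≤ stab := fun g hg => by
  obtain ⟨i, hi, rfl⟩ := mem_P2.1 hg
  exact hEl_mem (pList_lt i hi)

theorem tRef_hEl : tRef 0 = hEl tIdx :=
  M_inj (by rw [M_tRef (by norm_num), M_hEl tIdx_spec.1, tIdx_spec.2.2.1])

theorem centralizer_Rq : Subgroup.centralizer (Rq : Set Spor.J2) ≤ Rq := by
  intro g hg
  rw [Subgroup.mem_centralizer_iff] at hg
  have hs : g ∈ stab := mem_stab.2 (hg _ (by
    rw [tRef_hEl]; exact mem_Rq.2 ⟨_, tIdx_spec.2.2.2, rfl⟩)).symm
  obtain ⟨m, hm, rfl⟩ := stab_exists hs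
  have h := List.all_eq_true.1 qCentral m (List.mem_range.2 hm)
  simp only [Bool.or_eq_true, decide_eq_true_eq, List.any_eq_true, Bool.not_eq_true', beq_eq_false_iff_ne] at h
  rcases h with h | ⟨b, hb, hne⟩
  · exact mem_Rq.2 ⟨m, h, rfl⟩
  · refine absurd ?_ hne
    have := congrArg M (hg (hEl b) (mem_Rq.2 ⟨b, hb, rfl⟩))
    rw [M_mul, M_mul, M_hEl hm, M_hEl (qList_lt b hb)] at this
    exact this.symm

theorem central_involution {z : Spor.J2} (hz : z ∈ P2) (h2 : orderOf z = 2) (hc : ∀ s ∈ P2, s * z = z * s) :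
    z = tRef 0 := by
  obtain ⟨i, hi, rfl⟩ := mem_P2.1 hz
  have h := List.all_eq_true.1 pCentre i hi
  simp only [Bool.or_eq_true, beq_iff_eq, List.any_eq_true, Bool.not_eq_true', beq_eq_false_iff_ne] at h
  rcases h with (rfl | rfl) | ⟨j, hj, hne⟩
  · rw [show hEl 0 = 1 from M_inj (by rw [M_hEl (by norm_num), (h_spec (by norm_num)).1 rfl, M_one]), orderOf_one] at h2
    exact absurd h2 (by norm_num)
  · exact tRef_hEl.symm
  · refine absurd ?_ hne
    have := congrArg M (hc (hEl j) (mem_P2.2 ⟨j, hj, rfl⟩))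
    rw [M_mul, M_mul, M_hEl (pList_lt i hi), M_hEl (pList_lt j hj)] at this
    exact this.symm

theorem closed_eq_top {T : Subgroup Spor.J2} (hT : T ≤ P2)
    (hcl : ∀ z ∈ T, ∀ s ∈ P2, _root_.IsConj z s → s ∈ T) (ht : tRef 0 ∈ T) : T = P2 := by
  have hder : ∀ d, d < 128 → (pDer.getD d (0, 0, 0, 0, 0)).1 ∈ pList ∧
      hEl (pDer.getD d (0, 0, 0, 0, 0)).1 ∈ T := by
    intro d
    induction d using Nat.strong_induction_on with
    | _ d ih =>
      intro hd
      have h := List.all_eq_true.1 derOK_all d (List.mem_range.2 hd)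
      unfold derOK at h
      generalize pDer.getD d (0, 0, 0, 0, 0) = p at h ⊢
      split_ifs at h
      · simp only [Bool.and_eq_true, decide_eq_true_eq, beq_iff_eq] at h
        refine ⟨h.1.2, hcl _ ht _ (mem_P2.2 ⟨_, h.1.2, rfl⟩) ?_⟩
        rw [show hEl p.1 = tRef p.2.2.1 from M_inj (by rw [M_hEl (pList_lt _ h.1.2), M_tRef h.1.1]; exact h.2)]
        exact _root_.isConj_iff.2 ⟨uEl p.2.2.1, conj_uEl h.1.1⟩
      · simp only [Bool.and_eq_true, decide_eq_true_eq, beq_iff_eq] at h
        obtain ⟨⟨⟨ha, hb⟩, e⟩, hp⟩ := h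
        obtain ⟨pa, ta⟩ := ih _ ha (by omega)
        obtain ⟨pb, tb⟩ := ih _ hb (by omega)
        refine ⟨hp, ?_⟩
        have e' : hEl p.1 = hEl (pDer.getD p.2.2.1 (0, 0, 0, 0, 0)).1 * hEl (pDer.getD p.2.2.2.1 (0, 0, 0, 0, 0)).1 :=
          M_inj (by
            rw [M_mul, M_hEl (pList_lt _ hp), M_hEl (pList_lt _ pa), M_hEl (pList_lt _ pb)]
            exact e)
        rw [e']
        exact mul_mem ta tb
      · simp only [Bool.and_eq_true, decide_eq_true_eq, beq_iff_eq] at h
        obtain ⟨⟨⟨⟨ha, hn⟩, hm⟩, hp⟩, e⟩ := h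
        obtain ⟨pa, ta⟩ := ih _ ha (by omega)
        refine ⟨hp, hcl _ ta _ (mem_P2.2 ⟨_, hp, rfl⟩) (_root_.isConj_iff.2 ⟨uEl p.2.2.2.1 * hEl p.2.2.2.2, ?_⟩)⟩
        refine mul_inv_eq_iff_eq_mul.2 (M_inj ?_)
        rw [M_mul (uEl _ * hEl _), M_mul (hEl p.1), M_mul (uEl _), M_uEl hn, M_hEl hm, M_hEl (pList_lt _ pa),
          M_hEl (pList_lt _ hp)]
        exact e
  refine le_antisymm hT fun g hg => ?_
  obtain ⟨i, hi, rfl⟩ := mem_P2.1 hg
  have h := List.all_eq_true.1 pDer_cover i hi
  simp only [Bool.or_eq_true, beq_iff_eq, List.any_eq_true, List.mem_range] at h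
  rcases h with rfl | ⟨d, hd, rfl⟩
  · rw [show hEl 0 = 1 from M_inj (by rw [M_hEl (by norm_num), (h_spec (by norm_num)).1 rfl, M_one])]
    exact one_mem T
  · exact (hder d hd).2

theorem tRef_ne_one' : tRef 0 ≠ 1 := fun h => by
  have := congrArg M h
  rw [M_tRef (by norm_num), M_one] at this
  exact absurd this (by decide +kernel)

theorem tc_sq : mmul (tc 0) (tc 0) = idCode := by decide +kernel

theorem normalizer_le : Subgroup.normalizer (P2 : Set Spor.J2) ≤ stab := by
  intro g hg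
  have ht : tRef 0 ∈ P2 := tRef_hEl ▸ mem_P2.2 ⟨_, by simpa using List.all_eq_true.1 qList_le _ tIdx_spec.2.2.2, rfl⟩
  have h : g * tRef 0 * g⁻¹ = tRef 0 := by
    refine central_involution ((Subgroup.mem_normalizer_iff.1 hg _).1 ht) ?_ fun s hs => ?_
    · rw [show g * tRef 0 * g⁻¹ = MulAut.conj g (tRef 0) from rfl, MulEquiv.orderOf_eq]
      refine orderOf_eq_prime ?_ tRef_ne_one'
      rw [pow_two]
      exact M_inj (by rw [M_mul, M_tRef (by norm_num), M_one, tc_sq])
    · have hs' : g⁻¹ * s * g ∈ P2 := (Subgroup.mem_normalizer_iff.1 hg _).2 (by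
        simpa [mul_assoc] using hs)
      have hcm := mem_stab.1 (P2_le_stab hs')
      calc s * (g * tRef 0 * g⁻¹) = g * ((g⁻¹ * s * g) * tRef 0) * g⁻¹ := by group
        _ = g * (tRef 0 * (g⁻¹ * s * g)) * g⁻¹ := by rw [hcm]
        _ = _ := by group
  exact mem_stab.2 (mul_inv_eq_iff_eq_mul.1 h)

theorem stab_le_closure : stab ≤ Subgroup.closure {g : Spor.J2 |
    g ∈ Subgroup.normalizer (Rq : Set Spor.J2) ∧ ∃ k : ℕ, orderOf g = 2 ^ k} := by
  set C := Subgroup.closure {g : Spor.J2 | g ∈ Subgroup.normalizer (Rq : Set Spor.J2) ∧ ∃ k : ℕ, orderOf g = 2 ^ k}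
  have hgen : ∀ hk ∈ twoGens, ∃ g ∈ C, M g = hAt hk.1 := by
    intro hk hm
    have h := List.all_eq_true.1 twoGens_ok hk hm
    simp only [powOK, Bool.and_eq_true, decide_eq_true_eq, beq_iff_eq] at h
    have hp : ∀ n, M (hEl hk.1 ^ n) = (List.range n).foldr (fun _ s => mmul (hAt hk.1) s) idCode := by
      have aux : ∀ (l : List ℕ), M (hEl hk.1 ^ l.length) = l.foldr (fun _ s => mmul (hAt hk.1) s) idCode := by
        intro l
        induction l with
        | nil => rw [List.length_nil, pow_zero, M_one, List.foldr_nil]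
        | cons a l ih => rw [List.length_cons, pow_succ', M_mul, M_hEl h.1, ih, List.foldr_cons]
      intro n; simpa using aux (List.range n)
    obtain ⟨k, -, hk'⟩ := (Nat.dvd_prime_pow Nat.prime_two).1
      (orderOf_dvd_of_pow_eq_one (M_inj (by rw [hp, h.2, M_one]) : hEl hk.1 ^ 2 ^ hk.2 = 1))
    exact ⟨hEl hk.1, Subgroup.subset_closure ⟨stab_le_normalizer (hEl_mem h.1), k, hk'⟩, M_hEl h.1⟩
  have hword : ∀ w : List ℕ, (∀ a ∈ w, a < twoGens.length) → ∃ g ∈ C,
      M g = w.foldr (fun a s => mmul (hAt (twoGens.getD a (0, 0)).1) s) idCode := by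
    intro w
    induction w with
    | nil => exact fun _ => ⟨1, one_mem C, by rw [List.foldr_nil, M_one]⟩
    | cons a w ih =>
      intro hw
      obtain ⟨g, hg, e⟩ := ih fun b hb => hw b (List.mem_cons_of_mem _ hb)
      have ha := hw a List.mem_cons_self
      obtain ⟨x, hx, e'⟩ := hgen (twoGens.getD a (0, 0)) (by
        rw [List.getD_eq_getElem _ _ ha]; exact List.getElem_mem _)
      exact ⟨x * g, mul_mem hx hg, by rw [M_mul, e, e', List.foldr_cons]⟩
  have hall : ∀ m, m < 1920 → hEl m ∈ C := by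
    intro m
    induction m using Nat.strong_induction_on with
    | _ m ih =>
      intro hm
      by_cases h0 : m = 0
      · subst h0
        rw [show hEl 0 = 1 from M_inj (by rw [M_hEl hm, (h_spec hm).1 rfl, M_one])]
        exact one_mem C
      · obtain ⟨hp, he⟩ := (h_spec hm).2 h0
        have h := List.all_eq_true.1 twoWord_ok (getT hparTab 48 m % 2) (List.mem_range.2 (Nat.mod_lt _ (by norm_num)))
        simp only [Bool.and_eq_true, List.all_eq_true, decide_eq_true_eq, beq_iff_eq] at h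
        obtain ⟨g, hg, e⟩ := hword _ h.1
        rw [h.2] at e
        have : hEl m = g * hEl (getT hparTab 48 m / 2) :=
          M_inj (by rw [M_mul, M_hEl hm, M_hEl (by omega), e, he])
        rw [this]
        exact mul_mem hg (ih _ hp (by omega))
  intro g hg
  obtain ⟨m, hm, rfl⟩ := stab_exists hg
  exact hall m hm

theorem isSimple_model {G : Type*} [Group G] [Finite G] (φ : Spor.J2 ≃* G) (S : Sylow 2 G)
    (hS : (S : Subgroup G) = P2.map φ.toMonoidHom) :
    (Cfsg.groupFusionSystem (S : Subgroup G)).IsSimple 2 := by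
  haveI : Fact (Nat.Prime 2) := ⟨Nat.prime_two⟩
  have memS : ∀ {x : G}, x ∈ (S : Subgroup G) ↔ φ.symm x ∈ P2 := by
    intro x; rw [hS, Subgroup.mem_map_equiv]
  have hR : Rq.map φ.toMonoidHom ≤ (S : Subgroup G) := hS ▸ Subgroup.map_mono Rq_le
  refine Fusion.group_isSimple' S ?_ (fun T hT => ?_) ?_
  · intro h
    have := congrArg (fun H : Subgroup G => Nat.card H) h
    rw [Subgroup.card_bot, hS, Subgroup.card_map_of_injective φ.injective, card_P2] at this
    exact absurd this (by norm_num)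
  · refine (em (T = ⊥)).imp_right fun h0 => ?_
    obtain ⟨z, hz, hz2, hzc⟩ := Fusion.stronglyClosed_exists_central S.isPGroup' hT h0
    have hzP : φ.symm z = tRef 0 := by
      refine central_involution (memS.1 (hT.1 hz)) ((MulEquiv.orderOf_eq φ.symm z).trans hz2) fun s hs => ?_
      have := congrArg φ.symm (hzc (φ s) (memS.2 (by simpa using hs)))
      simpa using this
    have hT' := closed_eq_top (T := T.map φ.symm.toMonoidHom)
      (fun x hx => by obtain ⟨y, hy, rfl⟩ := hx; exact memS.1 (hT.1 hy))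
      (fun a ha s hs hc => by
        obtain ⟨b, hb, rfl⟩ := ha
        refine ⟨φ s, Fusion.stronglyClosed_conj_mem hT hb (memS.2 (by simpa using hs)) ?_, φ.symm_apply_apply s⟩
        simpa using MonoidHom.map_isConj φ.toMonoidHom hc)
      ⟨z, hz, hzP⟩
    rw [hS, ← hT', Subgroup.map_map]
    convert (Subgroup.map_id T).symm using 2
    exact MonoidHom.ext fun x => φ.apply_symm_apply x
  · refine le_trans ?_ (le_iSup₂_of_le (Rq.map φ.toMonoidHom) ⟨⟨hR, fun Q _ => ?_⟩, hR, ?_⟩ le_rfl)
    · intro α hα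
      obtain ⟨g, -, hgn, e⟩ := Fusion.mem_autInducedBy.mp hα
      refine Fusion.mem_autInducedBy.mpr ⟨g, ?_, hgn, e⟩
      have hg' : φ.symm g ∈ stab := normalizer_le (Subgroup.mem_normalizer_iff.2 fun y => by
        have := Subgroup.mem_normalizer_iff.1 hgn (φ y)
        rw [memS, memS] at this
        simpa using this)
      have hmap : φ (φ.symm g) ∈ (Subgroup.closure {g : Spor.J2 |
          g ∈ Subgroup.normalizer (Rq : Set Spor.J2) ∧ ∃ k : ℕ, orderOf g = 2 ^ k}).map φ.toMonoidHom :=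
        Subgroup.mem_map_of_mem φ.toMonoidHom (stab_le_closure hg')
      rw [MonoidHom.map_closure, φ.apply_symm_apply] at hmap
      refine Subgroup.closure_mono ?_ hmap
      rintro _ ⟨x, ⟨hx, k, hk⟩, rfl⟩
      refine ⟨Subgroup.mem_normalizer_iff.2 fun y => ?_, k, (MulEquiv.orderOf_eq φ x).trans hk⟩
      rw [Subgroup.mem_map_equiv, Subgroup.mem_map_equiv]
      have := Subgroup.mem_normalizer_iff.1 hx (φ.symm y)
      simpa using this
    · have h1 : (S : Subgroup G) ≤ Subgroup.normalizer (Rq.map φ.toMonoidHom : Set G) := by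
        intro s hs
        have hs' := stab_le_normalizer (P2_le_stab (memS.1 hs))
        refine Subgroup.mem_normalizer_iff.2 fun y => ?_
        rw [Subgroup.mem_map_equiv, Subgroup.mem_map_equiv]
        have := Subgroup.mem_normalizer_iff.1 hs' (φ.symm y)
        simpa using this
      exact Subgroup.card_le_of_le (le_inf inf_le_left (inf_le_left.trans h1))
    · rintro Q ⟨f, ⟨-, -, g, hg⟩, rfl⟩ c ⟨hcS, hc'⟩
      have hc := Subgroup.mem_centralizer_iff.1 hc'
      have hmem : φ.symm (g⁻¹ * c * g) ∈ Rq := centralizer_Rq (Subgroup.mem_centralizer_iff.2 fun y hy => by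
        have hy' : φ y ∈ Rq.map φ.toMonoidHom := Subgroup.mem_map_of_mem _ hy
        have h := hc (g * φ y * g⁻¹) ⟨⟨φ y, hy'⟩, hg _⟩
        apply φ.injective
        simp only [map_mul, φ.apply_symm_apply]
        calc φ y * (g⁻¹ * c * g) = g⁻¹ * (g * φ y * g⁻¹ * c) * g := by group
          _ = g⁻¹ * (c * (g * φ y * g⁻¹)) * g := by rw [h]
          _ = _ := by group)
      refine ⟨⟨g⁻¹ * c * g, Subgroup.mem_map_equiv.2 hmem⟩, ?_⟩
      rw [hg]
      group

theorem isSimple_two {G : Type*} [Group G] [Finite G] (hG : Cfsg.Spor.IsoJ2 G) (S : Sylow 2 G) :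
    (Cfsg.groupFusionSystem (S : Subgroup G)).IsSimple 2 := by
  haveI : Fact (Nat.Prime 2) := ⟨Nat.prime_two⟩
  obtain ⟨e⟩ := hG
  have hcard : Nat.card G = 604800 := by rw [Nat.card_congr e.toEquiv, card_J2]
  have hP : Nat.card (P2.map e.symm.toMonoidHom : Subgroup G) = 2 ^ (Nat.card G).factorization 2 := by
    rw [Subgroup.card_map_of_injective e.symm.injective, card_P2, hcard]
    have : (604800 : ℕ).factorization 2 = 7 := by
      rw [show (604800 : ℕ) = 2 ^ 7 * 4725 by norm_num, Nat.factorization_mul (by norm_num) (by norm_num),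
        Nat.prime_two.factorization_pow]
      simp [Nat.factorization_eq_zero_of_not_dvd (show ¬ 2 ∣ 4725 by norm_num)]
    rw [this]; norm_num
  obtain ⟨c, hc⟩ := MulAction.exists_smul_eq G (Sylow.ofCard _ hP) S
  refine isSimple_model (e.symm.trans (MulAut.conj c)) S ?_
  rw [← hc]
  show (P2.map e.symm.toMonoidHom).map (MulAut.conj c).toMonoidHom = _
  rw [Subgroup.map_map]
  rfl

end Cfsg.Agent.FGS2.J2
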